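import Cfsg.Prelude.Def_Transfer
import Cfsg.Agent.PGroup.Extraspecial
import Cfsg.Agent.CharBasics.Extra
import Cfsg.Agent.CharBasics.Induced

/-!
Characters of extraspecial groups: a central twist forces vanishing off the centre.
-/

set_option autoImplicit false
set_option linter.style.haveILetI false

namespace CfsgLib.Extraspecial

open Cfsg CfsgLib.CharBasics
open scoped commutatorElement ComplexConjugate

universe u

variable {P : Type u} [Group P] {p : ℕ} [hp : Fact p.Prime]

/-- A class function twisted by a nontrivial scalar under each central element vanishes off the centre. -/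
theorem vanish_of_twist [Finite P] (h : Cfsg.IsExtraspecial p P) {f : P → ℂ} (hf : IsClassFunction P f)
    (htw : ∀ z ∈ Subgroup.center P, z ≠ 1 → ∃ c : ℂ, c ≠ 1 ∧ ∀ y, f (z * y) = c * f y)
    {x : P} (hx : x ∉ Subgroup.center P) : f x = 0 := by
  obtain ⟨g, hg⟩ : ∃ g : P, g * x ≠ x * g := by
    by_contra hc
    push Not at hc
    exact hx (Subgroup.mem_center_iff.2 hc)
  have hz1 : ⁅g, x⁆ ≠ 1 := fun e => hg (commutatorElement_eq_one_iff_mul_comm.1 e)
  obtain ⟨c, hc, he⟩ := htw _ (commutator_mem_center h g x) hz1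
  have h1 := he x
  rw [show ⁅g, x⁆ * x = g * x * g⁻¹ by rw [commutatorElement_def]; group, hf x g] at h1
  have h2 : (c - 1) * f x = 0 := by linear_combination -h1
  exact (mul_eq_zero.1 h2).resolve_left (sub_ne_zero.2 hc)

/-- A subgroup meeting the centre nontrivially contains it. -/
theorem center_le_of_mem [Finite P] (h : Cfsg.IsExtraspecial p P) {A : Subgroup P} {z : P}
    (hz : z ∈ Subgroup.center P) (hzA : z ∈ A) (hz1 : z ≠ 1) : Subgroup.center P ≤ A := by
  intro y hy
  haveI : Fact (Nat.card (Subgroup.center P)).Prime := ⟨by rw [h.2]; exact hp.out⟩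
  have hne : (⟨z, hz⟩ : Subgroup.center P) ≠ 1 := fun e => hz1 (congrArg Subtype.val e)
  have htop := zpowers_eq_top_of_prime_card (G := Subgroup.center P) rfl hne
  have hmem : (⟨y, hy⟩ : Subgroup.center P) ∈ Subgroup.zpowers (⟨z, hz⟩ : Subgroup.center P) :=
    htop ▸ Subgroup.mem_top _
  obtain ⟨k, hk⟩ := hmem
  have : z ^ k = y := by simpa using congrArg Subtype.val hk
  exact this ▸ A.zpow_mem hzA k

theorem card_quotient_center [Finite P] (h : Cfsg.IsExtraspecial p P) {n : ℕ}
    (hcard : Nat.card P = p ^ (2 * n + 1)) : Nat.card (P ⧸ Subgroup.center P) = p ^ (2 * n) := by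
  have h1 := Subgroup.card_eq_card_quotient_mul_card_subgroup (Subgroup.center P)
  rw [hcard, h.2, pow_succ] at h1
  exact (Nat.eq_of_mul_eq_mul_right hp.out.pos h1).symm

theorem one_le_width [Finite P] (h : Cfsg.IsExtraspecial p P) {n : ℕ}
    (hcard : Nat.card P = p ^ (2 * n + 1)) : 1 ≤ n := by
  obtain ⟨m, hm, hc⟩ := exists_card h
  have := Nat.pow_right_injective hp.out.two_le (hcard.symm.trans hc)
  omega

/-- Irreducible characters: trivial on the centre and linear, or of degree `p ^ n`. -/
theorem irr_dichotomy [Finite P] (h : Cfsg.IsExtraspecial p P) {n : ℕ} (hcard : Nat.card P = p ^ (2 * n + 1))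
    (χ : IrrCharacter P) :
    ((∀ z ∈ Subgroup.center P, (χ : P → ℂ) z = (χ : P → ℂ) 1) ∧ (χ : P → ℂ) 1 = 1) ∨
      ((χ : P → ℂ) 1 = (p : ℂ) ^ n ∧ (χ : P → ℂ) 1 ≠ 1) := by
  classical
  haveI := Fintype.ofFinite P
  have hc := isCharacter_of_irr χ.2
  by_cases ht : ∀ z ∈ Subgroup.center P, (χ : P → ℂ) z = (χ : P → ℂ) 1
  · left
    refine ⟨ht, ?_⟩
    obtain ⟨ψ, hψ⟩ := exists_quotient_irr χ (Subgroup.center P) ht
    haveI : IsMulCommutative (P ⧸ Subgroup.center P) := ⟨⟨fun a b => by
      induction a using QuotientGroup.induction_on with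
      | H a =>
        induction b using QuotientGroup.induction_on with
        | H b =>
          rw [← QuotientGroup.mk_mul, ← QuotientGroup.mk_mul, QuotientGroup.eq]
          have hm := commutator_mem_center h b⁻¹ a⁻¹
          rw [commutatorElement_def] at hm
          simpa [mul_assoc] using hm⟩⟩
    have h1 := charDegree_comm ψ.2
    have h2 := apply_one (isCharacter_of_irr ψ.2)
    rw [h1, Nat.cast_one, ← QuotientGroup.mk_one, hψ] at h2
    exact h2
  · right
    push Not at ht
    obtain ⟨z₀, hz₀, hne⟩ := ht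
    have hd0 := apply_one_ne_zero χ.2
    have htw : ∀ z ∈ Subgroup.center P, z ≠ 1 →
        ∃ c : ℂ, c ≠ 1 ∧ ∀ y, (χ : P → ℂ) (z * y) = c * (χ : P → ℂ) y := by
      intro z hz hz1
      refine ⟨(χ : P → ℂ) z / (χ : P → ℂ) 1, fun he => hne ?_, fun y => ?_⟩
      · rw [div_eq_one_iff_eq hd0] at he
        exact center_le_of_mem h (A := charKer _ hc) hz he hz1 hz₀
      · field_simp
        linear_combination center_mul χ.2 hz y
    have hv : ∀ x, x ∉ Subgroup.center P → (χ : P → ℂ) x = 0 := fun x hx =>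
      vanish_of_twist h (isClassFunction hc) htw hx
    have hnz : ∀ z ∈ Subgroup.center P, (χ : P → ℂ) z * conj ((χ : P → ℂ) z) = (χ : P → ℂ) 1 * (χ : P → ℂ) 1 := by
      intro z hz
      have h1 := center_mul χ.2 hz z⁻¹
      rw [mul_inv_cancel, apply_inv hc] at h1
      exact h1.symm
    have hn := classInner_self χ.2
    rw [classInner_eq] at hn
    rw [Finset.sum_congr rfl (g := fun g => if g ∈ Subgroup.center P then (χ : P → ℂ) 1 * (χ : P → ℂ) 1 else 0)
      (fun g _ => by
        split_ifs with hg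
        · exact hnz g hg
        · rw [hv g hg, zero_mul]), ← Finset.sum_filter, Finset.sum_const, nsmul_eq_mul,
      show (Finset.univ.filter (fun g => g ∈ Subgroup.center P)).card = p by
        rw [← Fintype.card_subtype, ← Nat.card_eq_fintype_card]; exact h.2,
      hcard, apply_one hc] at hn
    have hp0 : (p : ℂ) ≠ 0 := Nat.cast_ne_zero.2 hp.out.ne_zero
    rw [inv_mul_eq_one₀ (Nat.cast_ne_zero.2 (pow_ne_zero _ hp.out.ne_zero))] at hn
    have hn' : p ^ (2 * n + 1) = p * (charDegree (χ : P → ℂ) * charDegree (χ : P → ℂ)) := by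
      exact_mod_cast hn
    have hd : charDegree (χ : P → ℂ) = p ^ n := by
      have h3 : charDegree (χ : P → ℂ) * charDegree (χ : P → ℂ) = p ^ n * p ^ n :=
        Nat.eq_of_mul_eq_mul_left hp.out.pos (by rw [← hn', pow_succ, pow_mul', sq]; ring)
      exact Nat.mul_self_inj.1 h3
    rw [apply_one hc, hd]
    refine ⟨by push_cast; rfl, fun he => ?_⟩
    have h4 : p ^ n = 1 := by exact_mod_cast he
    have := one_le_width h hcard
    have := Nat.one_lt_pow (a := p) (n := n) (by omega) hp.out.one_lt
    omega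

end CfsgLib.Extraspecial
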