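import Cfsg.Agent.ZJ.Replacement
import Cfsg.Agent.PGroup.Basic
import Mathlib.Algebra.Ring.Parity

/-!
The replacement theorem of `Cfsg.Agent.ZJ.Replacement` with the constructed subgroup described more finely, for exponent and rank bounds.
-/

set_option autoImplicit false

namespace CfsgLib.PGroup

open scoped commutatorElement Pointwise
open CfsgLib.ZJ (Good good_commute good_map good_mono good_sup good_closure exists_step card_sup_mul_card_inf_of_le_normalizer commutator_mul_left commutator_mul_right)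

variable {G : Type*} [Group G]

/-- **Replacement theorem** (Thompson; Glauberman). -/
theorem replacement_fine [Finite G] {p : ℕ} [hp : Fact p.Prime] {el : Bool} {A B : Subgroup G}
    (hA : Good p el A) (hP : IsPGroup p ↥(A ⊔ B)) (hAB : A ≤ Subgroup.normalizer (B : Set G))
    (hBA : ⁅B, B⁆ ≤ A) (hB2 : ⁅⁅B, B⁆, B⁆ = ⊥)
    (hodd : p ≠ 2 ∨ Good p el B) (hBnA : ¬ B ≤ Subgroup.normalizer (A : Set G)) :
    ∃ A' : Subgroup G, Good p el A' ∧ Nat.card A' = Nat.card A ∧ A ⊓ B < A' ⊓ B ∧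
      A' ≤ Subgroup.normalizer (A : Set G) ∧ ∃ b ∈ B, A' ≤ A ⊔ A.map (MulAut.conj b).toMonoidHom ∧
        A.map (MulAut.conj b).toMonoidHom ≤ Subgroup.normalizer (A : Set G) ∧
        A ≤ Subgroup.normalizer ((A.map (MulAut.conj b).toMonoidHom : Subgroup G) : Set G) ∧
        A ⊓ A.map (MulAut.conj b).toMonoidHom ≤ A' ∧ ∀ a ∈ A, a * b * a⁻¹ * b⁻¹ ∈ A' := by
  obtain ⟨b, hb, hbn, hbM⟩ := exists_step hP hAB hBnA
  set A₁ := A.map (MulAut.conj b).toMonoidHom with hA₁
  set H := A ⊔ A₁ with hH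
  set Z := A ⊓ A₁ with hZ
  have hconjB : ∀ a ∈ A, ∀ y ∈ B, a * y * a⁻¹ ∈ B := fun a ha y hy =>
    (Subgroup.mem_normalizer_iff.1 (hAB ha) y).1 hy
  have hMN : A ⊔ B ⊓ Subgroup.normalizer (A : Set G) ≤ Subgroup.normalizer (A : Set G) :=
    sup_le Subgroup.le_normalizer inf_le_right
  have hA₁N : A₁ ≤ Subgroup.normalizer (A : Set G) := by
    rintro _ ⟨a, ha, rfl⟩
    exact hMN (hbM a ((le_sup_left : A ≤ A ⊔ _) ha))
  have hHN : H ≤ Subgroup.normalizer (A : Set G) := sup_le Subgroup.le_normalizer hA₁N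
  have hb' : ∀ x ∈ A ⊔ B ⊓ Subgroup.normalizer (A : Set G),
      b⁻¹ * x * b ∈ A ⊔ B ⊓ Subgroup.normalizer (A : Set G) := by
    intro x hx
    have h : b⁻¹ ∈ Subgroup.normalizer ((A ⊔ B ⊓ Subgroup.normalizer (A : Set G) : Subgroup G) : Set G) :=
      Subgroup.inv_mem _ (Subgroup.mem_normalizer_fintype hbM)
    simpa using (Subgroup.mem_normalizer_iff.1 h x).1 hx
  have hAN₁ : ∀ a ∈ A, ∀ x ∈ A₁, a * x * a⁻¹ ∈ A₁ := by
    rintro a ha _ ⟨a', ha', rfl⟩
    refine ⟨(b⁻¹ * a * b) * a' * (b⁻¹ * a * b)⁻¹, ?_, ?_⟩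
    · exact (Subgroup.mem_normalizer_iff.1 (hMN (hb' a ((le_sup_left : A ≤ A ⊔ _) ha))) a').1 ha'
    · simp [mul_assoc]
  have hZc : ∀ z ∈ Z, ∀ h ∈ H, z * h = h * z := by
    intro z hz h hh
    have : H ≤ Subgroup.centralizer ({z} : Set G) := by
      refine sup_le (fun a ha => ?_) (fun a ha => ?_)
      · exact Subgroup.mem_centralizer_iff.2 fun y hy => by
          rw [Set.mem_singleton_iff.1 hy]; exact good_commute hA hz.1 ha
      · exact Subgroup.mem_centralizer_iff.2 fun y hy => by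
          rw [Set.mem_singleton_iff.1 hy]; exact good_commute (good_map _ hA) hz.2 ha
    exact Subgroup.mem_centralizer_iff.1 (this hh) z rfl
  have hfix : ∀ x ∈ A ⊓ B, x ∈ Z := by
    intro x hx
    refine ⟨hx.1, ⟨b⁻¹ * x * b, ?_, by simp [mul_assoc]⟩⟩
    have : ⁅b⁻¹, x⁆ ∈ A := hBA (Subgroup.commutator_mem_commutator (B.inv_mem hb) hx.2)
    simpa [commutatorElement_def] using A.mul_mem this hx.1
  -- the elements `u a = [a, b]`
  set u : G → G := fun a => a * b * a⁻¹ * b⁻¹ with hu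
  have huB : ∀ a ∈ A, u a ∈ B := fun a ha => B.mul_mem (hconjB a ha b hb) (B.inv_mem hb)
  have huA : ∀ a ∈ A, u a = a * (b * a⁻¹ * b⁻¹) := fun a _ => by simp [hu, mul_assoc]
  have hmem₁ : ∀ a ∈ A, b * a⁻¹ * b⁻¹ ∈ A₁ := fun a ha => ⟨a⁻¹, A.inv_mem ha, rfl⟩
  have huH : ∀ a ∈ A, u a ∈ H := fun a ha => by
    rw [huA a ha]
    exact H.mul_mem ((le_sup_left : A ≤ H) ha) ((le_sup_right : A₁ ≤ H) (hmem₁ a ha))
  have hw : ∀ a ∈ A, ∀ a' ∈ A, ⁅a', u a⁆ ∈ Z := by
    intro a ha a' ha'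
    set c := b * a⁻¹ * b⁻¹ with hc
    have hc1 : ⁅a', c⁆ ∈ Z := by
      refine ⟨?_, ?_⟩
      · have := (Subgroup.mem_normalizer_iff.1 (hA₁N (hmem₁ a ha)) a'⁻¹).1 (A.inv_mem ha')
        have h9 := A.mul_mem ha' this
        rw [← mul_assoc, ← mul_assoc] at h9
        rwa [commutatorElement_def]
      · rw [commutatorElement_def]
        exact A₁.mul_mem (hAN₁ a' ha' c (hmem₁ a ha)) (A₁.inv_mem (hmem₁ a ha))
    rw [huA a ha, commutator_mul_right, commutatorElement_eq_one_iff_mul_comm.2 (good_commute hA ha' ha),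
      one_mul, ← hZc _ hc1 a ((le_sup_left : A ≤ H) ha), mul_inv_cancel_right]
    exact hc1
  have hwB : ∀ a ∈ A, ∀ a' ∈ A, ⁅a', u a⁆ ∈ A ⊓ B := fun a ha a' ha' => ⟨(hw a ha a' ha').1, by
    rw [commutatorElement_def]
    exact B.mul_mem (hconjB a' ha' _ (huB a ha)) (B.inv_mem (huB a ha))⟩
  have hBB : ∀ {y z : G}, y ∈ B → z ∈ B → ⁅y, z⁆ ∈ ⁅B, B⁆ := fun hy hz =>
    Subgroup.commutator_mem_commutator hy hz
  have hcB : ∀ d ∈ ⁅B, B⁆, ∀ y ∈ B, y * d * y⁻¹ = d := by
    intro d hd y hy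
    have h := Subgroup.commutator_mem_commutator hd hy
    rw [hB2, Subgroup.mem_bot, commutatorElement_eq_one_iff_mul_comm] at h
    rw [← h, mul_inv_cancel_right]
  have hU : ∀ a₁ ∈ A, ∀ a₂ ∈ A, u a₁ * u a₂ = u a₂ * u a₁ := by
    intro a₁ ha₁ a₂ ha₂
    rcases hodd with hodd | hodd
    swap
    · exact good_commute hodd (huB a₁ ha₁) (huB a₂ ha₂)
    have key : ∀ x ∈ A, ∀ y ∈ A, ⁅b, ⁅x, u y⁆⁆ * ⁅u x, u y⁆ = 1 := by
      intro x hx y hy
      set w := ⁅x, u y⁆ with hwdef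
      have hwz : w ∈ B := (hwB y hy x hx).2
      have h0 : x * ⁅b, u y⁆ * x⁻¹ = ⁅b, u y⁆ := by
        rw [← good_commute hA (hBA (hBB hb (huB y hy))) hx, mul_inv_cancel_right]
      have h1 : x * ⁅b, u y⁆ * x⁻¹ = ⁅u x * b, w * u y⁆ := by
        simp only [hwdef, hu, commutatorElement_def]; group
      rw [h0, commutator_mul_left, commutator_mul_right b w, commutator_mul_right (u x) w,
        hcB _ (hBB hb (huB y hy)) w hwz, hcB _ (hBB (huB x hx) (huB y hy)) w hwz,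
        hcB _ ((⁅B, B⁆).mul_mem (hBB hb hwz) (hBB hb (huB y hy))) (u x) (huB x hx),
        (commutatorElement_eq_one_iff_mul_comm.2 (hZc _ (hw y hy x hx) _ (huH x hx)).symm :
          ⁅u x, w⁆ = 1), one_mul] at h1
      have hc : ⁅b, u y⁆ * ⁅u x, u y⁆ = ⁅u x, u y⁆ * ⁅b, u y⁆ :=
        good_commute hA (hBA (hBB hb (huB y hy))) (hBA (hBB (huB x hx) (huB y hy)))
      rw [mul_assoc, hc, ← mul_assoc] at h1
      exact mul_eq_right.1 h1.symm
    have k1 := key a₁ ha₁ a₂ ha₂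
    have k2 := key a₂ ha₂ a₁ ha₁
    set e := ⁅u a₁, u a₂⁆ with he
    -- symmetry of the double commutator
    have hsym : ⁅a₁, u a₂⁆ = ⁅a₂, u a₁⁆ * e := by
      have h3 : a₁ * a₂ * b * (a₁ * a₂)⁻¹ = a₂ * a₁ * b * (a₂ * a₁)⁻¹ := by
        rw [good_commute hA ha₁ ha₂]
      have h4 : a₁ * a₂ * b * (a₁ * a₂)⁻¹ = ⁅a₁, u a₂⁆ * u a₂ * u a₁ * b := by
        simp only [hu, commutatorElement_def]; group
      have h5 : a₂ * a₁ * b * (a₂ * a₁)⁻¹ = ⁅a₂, u a₁⁆ * u a₁ * u a₂ * b := by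
        simp only [hu, commutatorElement_def]; group
      rw [h4, h5] at h3
      have h6 := mul_right_cancel h3
      calc ⁅a₁, u a₂⁆ = ⁅a₁, u a₂⁆ * u a₂ * u a₁ * (u a₂ * u a₁)⁻¹ := by group
        _ = ⁅a₂, u a₁⁆ * u a₁ * u a₂ * (u a₂ * u a₁)⁻¹ := by rw [h6]
        _ = ⁅a₂, u a₁⁆ * e := by rw [he, commutatorElement_def (u a₁)]; group
    have hex : ⁅b, e⁆ = 1 := by
      rw [commutatorElement_eq_one_iff_mul_comm, ← mul_inv_eq_iff_eq_mul]
      exact hcB _ (hBB (huB _ ha₁) (huB _ ha₂)) b hb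
    rw [hsym, commutator_mul_right, hex, mul_one, mul_inv_cancel, mul_one] at k1
    rw [← commutatorElement_inv (u a₁) (u a₂), ← he] at k2
    have hee : e = e⁻¹ := mul_left_cancel (k1.trans k2.symm)
    have he2 : e ^ 2 = 1 := by
      rw [pow_two]
      nth_rewrite 2 [hee]
      rw [mul_inv_cancel]
    obtain ⟨k, hk⟩ := IsPGroup.iff_orderOf.1 hP ⟨e, (le_sup_right : B ≤ A ⊔ B)
      (by rw [he, commutatorElement_def]; exact B.mul_mem (B.mul_mem (B.mul_mem (huB _ ha₁) (huB _ ha₂))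
        (B.inv_mem (huB _ ha₁))) (B.inv_mem (huB _ ha₂)))⟩
    rw [Subgroup.orderOf_mk] at hk
    have h1 : orderOf e = 1 := Nat.eq_one_of_dvd_coprimes
      (((Nat.coprime_primes hp.out Nat.prime_two).2 hodd).pow_left k) hk.dvd
      (orderOf_dvd_of_pow_eq_one he2)
    exact commutatorElement_eq_one_iff_mul_comm.1 (orderOf_eq_one_iff.1 h1)
  -- the abelian subgroup `U = B ∩ H`
  set T : Set G := ((A ⊓ B : Subgroup G) : Set G) ∪ u '' (A : Set G) with hT
  set U := Subgroup.closure T with hUdef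
  have hUB : U ≤ B := by
    rw [hUdef, Subgroup.closure_le]
    rintro x (hx | ⟨a, ha, rfl⟩)
    exacts [hx.2, huB a ha]
  have hUH : U ≤ H := by
    rw [hUdef, Subgroup.closure_le]
    rintro x (hx | ⟨a, ha, rfl⟩)
    exacts [(le_sup_left : A ≤ H) hx.1, huH a ha]
  have hUg : Good p el U := by
    refine good_closure ?_ ?_
    · rintro x (hx | ⟨a, ha, rfl⟩) y (hy | ⟨a', ha', rfl⟩)
      · exact hZc x (hfix x hx) y ((le_sup_left : A ≤ H) hy.1)
      · exact hZc x (hfix x hx) _ (huH a' ha')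
      · exact (hZc y (hfix y hy) _ (huH a ha)).symm
      · exact hU a ha a' ha'
    · rintro hel x (hx | ⟨a, ha, rfl⟩)
      · exact hA.2 hel x hx.1
      · rcases hodd with hodd | hodd
        swap
        · exact hodd.2 hel _ (huB a ha)
        set c := b * a⁻¹ * b⁻¹
        have hcp : c ^ p = 1 := (good_map (MulAut.conj b).toMonoidHom hA).2 hel c (hmem₁ a ha)
        have hcz : ⁅c, a⁆ ∈ Z := by
          have hd : ⁅a, c⁆ ∈ Z := by
            refine ⟨?_, ?_⟩
            · have := (Subgroup.mem_normalizer_iff.1 (hA₁N (hmem₁ a ha)) a⁻¹).1 (A.inv_mem ha)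
              have h9 := A.mul_mem ha this
              rw [← mul_assoc, ← mul_assoc] at h9
              rwa [commutatorElement_def]
            · rw [commutatorElement_def]
              exact A₁.mul_mem (hAN₁ a ha c (hmem₁ a ha)) (A₁.inv_mem (hmem₁ a ha))
          rw [← commutatorElement_inv]
          exact Z.inv_mem hd
        rw [huA a ha, CfsgLib.QdRank.prod_comm_pow_aux (a := a) (b := c) ?_ p, hA.2 hel a ha, hcp,
          one_mul, one_mul]
        · obtain ⟨m, hm⟩ := hp.out.dvd_choose_self (by norm_num : (2 : ℕ) ≠ 0)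
            (lt_of_le_of_ne hp.out.two_le (Ne.symm hodd))
          rw [hm, pow_mul, hA.2 hel _ hcz.1, one_pow]
        · rintro y (rfl | rfl)
          · exact hZc _ hcz _ ((le_sup_left : A ≤ H) ha)
          · exact hZc _ hcz _ ((le_sup_right : A₁ ≤ H) (hmem₁ a ha))
  have hAU : A ≤ Subgroup.normalizer (U : Set G) := by
    intro a ha
    refine Subgroup.mem_normalizer_fintype fun x hx => ?_
    have : U ≤ U.comap (MulAut.conj a).toMonoidHom := by
      rw [hUdef, Subgroup.closure_le]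
      rintro y (hy | ⟨a', ha', rfl⟩)
      · show a * y * a⁻¹ ∈ Subgroup.closure T
        rw [good_commute hA ha hy.1, mul_inv_cancel_right]
        exact Subgroup.subset_closure (Or.inl hy)
      · show a * u a' * a⁻¹ ∈ Subgroup.closure T
        have : a * u a' * a⁻¹ = ⁅a, u a'⁆ * u a' := by rw [commutatorElement_def]; group
        rw [this]
        exact mul_mem (Subgroup.subset_closure (Or.inl (hwB a' ha' a ha)))
          (Subgroup.subset_closure (Or.inr ⟨a', ha', rfl⟩))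
    exact this hx
  have hHeq : H = A ⊔ U := by
    refine le_antisymm (sup_le le_sup_left ?_) (sup_le le_sup_left hUH)
    rintro _ ⟨a, ha, rfl⟩
    have e : (MulAut.conj b).toMonoidHom a = (u a)⁻¹ * a := by simp [hu, mul_assoc]
    rw [e]
    exact (A ⊔ U).mul_mem ((A ⊔ U).inv_mem ((le_sup_right : U ≤ A ⊔ U)
      (Subgroup.subset_closure (Or.inr ⟨a, ha, rfl⟩)))) ((le_sup_left : A ≤ A ⊔ U) ha)
  have hAUinf : A ⊓ U = A ⊓ B := le_antisymm (inf_le_inf_left _ hUB)
    (le_inf inf_le_left fun x hx => Subgroup.subset_closure (Or.inl hx))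
  have hZUinf : Z ⊓ U = A ⊓ B := le_antisymm (le_inf (inf_le_left.trans inf_le_left)
    (inf_le_right.trans hUB)) (le_inf (fun x hx => hfix x hx) fun x hx => Subgroup.subset_closure (Or.inl hx))
  have hZg : Good p el Z := good_mono inf_le_left hA
  have hUZ : U ≤ Subgroup.centralizer (Z : Set G) := fun x hx =>
    Subgroup.mem_centralizer_iff.2 fun z hz => hZc z hz x (hUH hx)
  have hc1 : Nat.card H * Nat.card Z = Nat.card A * Nat.card A := by
    have hn : A₁ ≤ Subgroup.normalizer (A : Set G) := hA₁N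
    have := card_sup_mul_card_inf_of_le_normalizer hn
    rw [sup_comm, inf_comm, ← hH, ← hZ] at this
    rw [this, hA₁, Subgroup.card_map_of_injective (MulAut.conj b).injective]
  have hc2 : Nat.card H * Nat.card (A ⊓ B : Subgroup G) = Nat.card A * Nat.card U := by
    rw [hHeq, ← hAUinf]
    exact card_sup_mul_card_inf_of_le_normalizer hAU
  have hc3 : Nat.card (Z ⊔ U : Subgroup G) * Nat.card (A ⊓ B : Subgroup G) =
      Nat.card Z * Nat.card U := by
    rw [← hZUinf]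
    refine card_sup_mul_card_inf_of_le_normalizer ?_
    exact fun z hz => hAU hz.1
  have hcard : Nat.card (Z ⊔ U : Subgroup G) = Nat.card A := by
    have h4 : Nat.card A * (Nat.card U * Nat.card Z) = Nat.card A * (Nat.card A * Nat.card (A ⊓ B : Subgroup G)) := by
      rw [← mul_assoc, ← hc2, mul_right_comm, hc1, mul_assoc]
    have h5 := Nat.eq_of_mul_eq_mul_left Nat.card_pos h4
    rw [mul_comm (Nat.card U)] at h5
    rw [h5] at hc3
    exact Nat.eq_of_mul_eq_mul_right Nat.card_pos hc3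
  have hUlt : A ⊓ B < U := by
    refine lt_of_le_of_ne (fun x hx => Subgroup.subset_closure (Or.inl hx)) fun heq => hbn ?_
    refine Subgroup.mem_normalizer_fintype fun a ha => ?_
    have : u a ∈ A := by
      have : u a ∈ A ⊓ B := by rw [heq]; exact Subgroup.subset_closure (Or.inr ⟨a, ha, rfl⟩)
      exact this.1
    have e : b * a * b⁻¹ = (u a)⁻¹ * a := by simp [hu, mul_assoc]
    rw [e]
    exact A.mul_mem (A.inv_mem this) ha
  refine ⟨Z ⊔ U, good_sup hZg hUg hUZ, hcard, lt_of_lt_of_le hUlt (le_inf le_sup_right hUB),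
    (sup_le (inf_le_left.trans le_sup_left) hUH).trans hHN, b, hb,
    sup_le (inf_le_left.trans le_sup_left) hUH, hA₁N, ?_, le_sup_left,
    fun a ha => Subgroup.mem_sup_right (Subgroup.subset_closure (Or.inr ⟨a, ha, rfl⟩))⟩
  exact fun a ha => Subgroup.mem_normalizer_fintype fun x hx => hAN₁ a ha x hx

/-- Exponent and rank data for the product of two abelian subgroups normalizing each other. -/
theorem pair_data [Finite G] {A A₁ : Subgroup G} (hA : IsMulCommutative A) (hA₁ : IsMulCommutative A₁)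
    (hn₁ : A₁ ≤ Subgroup.normalizer (A : Set G)) (hn : A ≤ Subgroup.normalizer (A₁ : Set G)) :
    (∀ x ∈ A ⊔ A₁, ∀ y ∈ A ⊔ A₁, ∀ z ∈ A ⊔ A₁, Commute ⁅x, y⁆ z) := by
  set H := A ⊔ A₁ with hH
  have cA : ∀ x ∈ A, ∀ y ∈ A, Commute x y := fun x hx y hy => congrArg Subtype.val (hA.is_comm.comm ⟨x, hx⟩ ⟨y, hy⟩)
  have cA₁ : ∀ x ∈ A₁, ∀ y ∈ A₁, Commute x y :=
    fun x hx y hy => congrArg Subtype.val (hA₁.is_comm.comm ⟨x, hx⟩ ⟨y, hy⟩)
  have hZc : ∀ z ∈ A ⊓ A₁, ∀ h ∈ H, Commute z h := by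
    intro z hz h hh
    have : H ≤ Subgroup.centralizer ({z} : Set G) := sup_le
      (fun a ha => Subgroup.mem_centralizer_singleton_iff.mpr (cA a ha z hz.1).eq)
      (fun a ha => Subgroup.mem_centralizer_singleton_iff.mpr (cA₁ a ha z hz.2).eq)
    exact (Subgroup.mem_centralizer_singleton_iff.mp (this hh)).symm
  have hac : ∀ a ∈ A, ∀ c ∈ A₁, ⁅a, c⁆ ∈ A ⊓ A₁ := fun a ha c hc => by
    refine ⟨?_, ?_⟩
    · have e : ⁅a, c⁆ = a * (c * a⁻¹ * c⁻¹) := by simp [commutatorElement_def, mul_assoc]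
      rw [e]; exact A.mul_mem ha ((Subgroup.mem_normalizer_iff.1 (hn₁ hc) a⁻¹).1 (A.inv_mem ha))
    · rw [commutatorElement_def]
      exact A₁.mul_mem ((Subgroup.mem_normalizer_iff.1 (hn ha) c).1 hc) (A₁.inv_mem hc)
  have hgen : ∀ x ∈ (A : Set G) ∪ A₁, ∀ y ∈ (A : Set G) ∪ A₁, ⁅x, y⁆ ∈ A ⊓ A₁ := by
    rintro x (hx | hx) y (hy | hy)
    · rw [commutatorElement_eq_one_iff_mul_comm.mpr (cA x hx y hy).eq]; exact one_mem _
    · exact hac x hx y hy
    · rw [← commutatorElement_inv]; exact inv_mem (hac y hy x hx)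
    · rw [commutatorElement_eq_one_iff_mul_comm.mpr (cA₁ x hx y hy).eq]; exact one_mem _
  have step : ∀ x y z : G, x ∈ H → ⁅x, z⁆ ∈ A ⊓ A₁ → ⁅y, z⁆ ∈ A ⊓ A₁ → ⁅x * y, z⁆ ∈ A ⊓ A₁ := by
    intro x y z hx h1 h2
    rw [commutator_mul_left, ← (hZc _ h2 x hx).eq, mul_inv_cancel_right]
    exact mul_mem h2 h1
  have left : ∀ y ∈ (A : Set G) ∪ A₁, ∀ x ∈ H, ⁅x, y⁆ ∈ A ⊓ A₁ := by
    intro y hy x hx
    rw [hH, Subgroup.sup_eq_closure] at hx
    induction hx using Subgroup.closure_induction with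
    | mem w hw => exact hgen w hw y hy
    | one => rw [commutatorElement_one_left]; exact one_mem _
    | mul u w hu _ h1 h2 => exact step u w y (by rwa [hH, Subgroup.sup_eq_closure]) h1 h2
    | inv u hu h1 =>
      have hu' : u ∈ H := by rwa [hH, Subgroup.sup_eq_closure]
      have e : ⁅u⁻¹, y⁆ = u⁻¹ * ⁅u, y⁆⁻¹ * u := by simp [commutatorElement_def, mul_assoc]
      rw [e, ← (hZc _ (inv_mem h1) u⁻¹ (H.inv_mem hu')).eq, inv_mul_cancel_right]
      exact inv_mem h1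
  intro x hx y hy z hz
  suffices ⁅x, y⁆ ∈ A ⊓ A₁ from hZc _ this z hz
  rw [← commutatorElement_inv]
  refine inv_mem ?_
  rw [hH, Subgroup.sup_eq_closure] at hy
  induction hy using Subgroup.closure_induction with
  | mem w hw => rw [← commutatorElement_inv]; exact inv_mem (left w hw x hx)
  | one => rw [commutatorElement_one_left]; exact one_mem _
  | mul u w hu _ h1 h2 => exact step u w x (by rwa [hH, Subgroup.sup_eq_closure]) h1 h2
  | inv u hu h1 =>
    have hu' : u ∈ H := by rwa [hH, Subgroup.sup_eq_closure]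
    have e : ⁅u⁻¹, x⁆ = u⁻¹ * ⁅u, x⁆⁻¹ * u := by simp [commutatorElement_def, mul_assoc]
    rw [e, ← (hZc _ (inv_mem h1) u⁻¹ (H.inv_mem hu')).eq, inv_mul_cancel_right]
    exact inv_mem h1

/-- In class two, `q`-torsion is closed under products for odd `q`. -/
theorem mul_pow_eq_one_of_odd {H : Subgroup G} (h2 : ∀ x ∈ H, ∀ y ∈ H, ∀ z ∈ H, Commute ⁅x, y⁆ z) {q : ℕ} (hq : Odd q)
    {x y : G} (hx : x ∈ H) (hy : y ∈ H) (hx1 : x ^ q = 1) (hy1 : y ^ q = 1) : (x * y) ^ q = 1 := by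
  have hc : ∀ a b : H, ⁅a, b⁆ ∈ Subgroup.center H := fun a b =>
    Subgroup.mem_center_iff.mpr fun g => Subtype.ext (h2 a a.2 b b.2 g g.2).symm.eq
  set x' : H := ⟨x, hx⟩
  set y' : H := ⟨y, hy⟩
  have ey : y' ^ q = 1 := Subtype.ext hy1
  have ex : x' ^ q = 1 := Subtype.ext hx1
  have e := mul_pow_central (hc y' x') q
  obtain ⟨k, hk⟩ := hq
  have hch : q.choose 2 = q * k := by
    rw [Nat.choose_two_right, hk, Nat.add_sub_cancel,
      show (2 * k + 1) * (2 * k) = (2 * k + 1) * k * 2 by ring, Nat.mul_div_cancel _ two_pos]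
  rw [hch, pow_mul, ← commutator_pow_left hc, ey, ex, commutatorElement_one_left, one_pow, mul_one, mul_one] at e
  exact congrArg Subtype.val e

end CfsgLib.PGroup
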